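import Mathlib
import Cfsg.Agent.H162.CC.Tools

/-!
# Second moment lemma, prime order version: the counting part (helper215, for S3828)

`G` finite, `p² ∤ |G|`, `c` of order `p` with `C_G(c) = ⟨c⟩`, `|N_G(⟨c⟩)| = p n`, `A = c^G`, `r(x) = #{d ∈ A : x d ∈ A}`,
`s = ∑_{x ∈ ⟨c⟩, x ≠ 1} r(x)`. If `[c, d]` is a `p`-element for all `d ∈ A` then `|A|² ≤ (1 + s/n)(|A| + s)`.
-/

set_option autoImplicit false

namespace Cfsg.Agent.H215.CC

open Subgroup Finset

universe u

variable {G : Type u} [Group G]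

theorem mem_norm_of [Finite G] {x g : G} (h : g * x * g⁻¹ ∈ zpowers x) : g ∈ normalizer (zpowers x : Set G) := by
  have h1 : (zpowers x).map (MulAut.conj g).toMonoidHom = zpowers x := by
    apply Subgroup.eq_of_le_of_card_ge
    · rw [MonoidHom.map_zpowers]
      exact Subgroup.zpowers_le.2 h
    · rw [Subgroup.card_map_of_injective (MulAut.conj g).injective]
  rw [mem_normalizer_iff]
  intro y
  constructor
  · intro hy
    have h2 : (MulAut.conj g) y ∈ (zpowers x).map (MulAut.conj g).toMonoidHom := ⟨y, hy, rfl⟩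
    rw [h1] at h2
    exact h2
  · intro hy
    have h2 : g * y * g⁻¹ ∈ (zpowers x).map (MulAut.conj g).toMonoidHom := by rw [h1]; exact hy
    obtain ⟨z, hz, hzy⟩ := h2
    have h3 : g * z * g⁻¹ = g * y * g⁻¹ := hzy
    have h4 : z = y := mul_left_cancel (mul_right_cancel h3)
    rwa [← h4]

theorem orderOf_conj' (g x : G) : orderOf (g * x * g⁻¹) = orderOf x := MulEquiv.orderOf_eq (MulAut.conj g) x

theorem zpowers_eq [Finite G] {p : ℕ} {c y : G} (hc : orderOf c = p) (hy : orderOf y = p) (h : y ∈ zpowers c) :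
    zpowers y = zpowers c := by
  apply Subgroup.eq_of_le_of_card_ge (Subgroup.zpowers_le.2 h)
  rw [Nat.card_zpowers, Nat.card_zpowers, hc, hy]

section sylow

variable [Finite G] {p : ℕ} [hp : Fact p.Prime]

theorem exists_conj (h2 : ¬ p ^ 2 ∣ Nat.card G) {c x : G} (hc : orderOf c = p) (hx : orderOf x = p) :
    ∃ h : G, h * x * h⁻¹ ∈ zpowers c := by
  have hidx : ¬ p ∣ (zpowers c).index := by
    intro h
    apply h2
    rw [← (zpowers c).card_mul_index, Nat.card_zpowers, hc, pow_two]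
    exact Nat.mul_dvd_mul_left p h
  have hcp : IsPGroup p (zpowers c) := IsPGroup.of_card (n := 1) (by rw [Nat.card_zpowers, hc, pow_one])
  have hxp : IsPGroup p (zpowers x) := IsPGroup.of_card (n := 1) (by rw [Nat.card_zpowers, hx, pow_one])
  obtain ⟨Q, hQ⟩ := hxp.exists_le_sylow
  obtain ⟨g, hg⟩ := MulAction.exists_smul_eq G Q (hcp.toSylow hidx)
  refine ⟨g, ?_⟩
  have h1 := Cfsg.Agent.H162.CCR.mem_smul_sylow (P := Q) (g := g) (x := x) (hQ (mem_zpowers x))
  rw [hg] at h1
  exact h1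

theorem card_conj_into (h2 : ¬ p ^ 2 ∣ Nat.card G) {c x : G} (hc : orderOf c = p) (hx : orderOf x = p) :
    Nat.card {g : G // g * x * g⁻¹ ∈ zpowers c} = Nat.card (normalizer (zpowers c : Set G)) := by
  obtain ⟨h, hh⟩ := exists_conj h2 hc hx
  have hy : orderOf (h * x * h⁻¹) = p := by rw [orderOf_conj', hx]
  have hz : zpowers (h * x * h⁻¹) = zpowers c := zpowers_eq hc hy hh
  refine Nat.card_congr ⟨fun g => ⟨g.1 * h⁻¹, ?_⟩, fun n => ⟨n.1 * h, ?_⟩, fun g => ?_, fun n => ?_⟩
  · have h3 : (g.1 * h⁻¹) * (h * x * h⁻¹) * (g.1 * h⁻¹)⁻¹ ∈ zpowers (h * x * h⁻¹) := by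
      rw [hz]
      have e : (g.1 * h⁻¹) * (h * x * h⁻¹) * (g.1 * h⁻¹)⁻¹ = g.1 * x * g.1⁻¹ := by group
      rw [e]
      exact g.2
    have h4 := mem_norm_of h3
    rw [hz] at h4
    exact h4
  · have h3 := (mem_normalizer_iff.1 n.2 (h * x * h⁻¹)).1 hh
    have e : n.1 * (h * x * h⁻¹) * n.1⁻¹ = (n.1 * h) * x * (n.1 * h)⁻¹ := by group
    rw [e] at h3
    exact h3
  · exact Subtype.ext (by simp)
  · exact Subtype.ext (by simp)

end sylow

open scoped Classical in
/-- the conjugacy class of `c` -/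
noncomputable def cls [Fintype G] (c : G) : Finset G := univ.filter fun d => IsConj c d

open scoped Classical in
/-- `#{d ∈ c^G : x d ∈ c^G}` -/
noncomputable def rr [Fintype G] (c x : G) : ℕ := ((cls c).filter fun d => x * d ∈ cls c).card

section

variable [Fintype G]

theorem mem_cls {c d : G} : d ∈ cls c ↔ IsConj c d := by
  classical
  unfold cls
  rw [Finset.mem_filter]
  exact ⟨fun h => h.2, fun h => ⟨Finset.mem_univ _, h⟩⟩

theorem self_mem_cls (c : G) : c ∈ cls c := mem_cls.2 (IsConj.refl c)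

theorem conj_mem_cls {c d : G} (g : G) : g * d * g⁻¹ ∈ cls c ↔ d ∈ cls c := by
  rw [mem_cls, mem_cls]
  have h : IsConj d (g * d * g⁻¹) := isConj_iff.2 ⟨g, rfl⟩
  exact ⟨fun h1 => h1.trans h.symm, fun h1 => h1.trans h⟩

theorem rr_one (c : G) : rr c 1 = (cls c).card := by
  classical
  unfold rr
  congr 1
  rw [Finset.filter_eq_self]
  intro d hd
  rwa [one_mul]

theorem rr_conj (c g x : G) : rr c (g * x * g⁻¹) = rr c x := by
  classical
  unfold rr
  symm
  refine Finset.card_bij (fun d _ => g * d * g⁻¹) ?_ ?_ ?_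
  · intro d hd
    rw [Finset.mem_filter] at hd ⊢
    refine ⟨(conj_mem_cls g).2 hd.1, ?_⟩
    have e : g * x * g⁻¹ * (g * d * g⁻¹) = g * (x * d) * g⁻¹ := by group
    rw [e]
    exact (conj_mem_cls g).2 hd.2
  · intro d _ e _ h
    exact mul_left_cancel (mul_right_cancel h)
  · intro d hd
    rw [Finset.mem_filter] at hd
    refine ⟨g⁻¹ * d * g, ?_, by group⟩
    rw [Finset.mem_filter]
    have h1 := (conj_mem_cls (c := c) (d := g⁻¹ * d * g) g).1 (by
      have e : g * (g⁻¹ * d * g) * g⁻¹ = d := by group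
      rw [e]
      exact hd.1)
    refine ⟨h1, ?_⟩
    refine (conj_mem_cls (c := c) g).1 ?_
    have e : g * (x * (g⁻¹ * d * g)) * g⁻¹ = g * x * g⁻¹ * d := by group
    rw [e]
    exact hd.2

open scoped Classical in
/-- `∑_{x ∈ X} r(x) = #{(d, d') ∈ A² : d' d⁻¹ ∈ X}` -/
theorem sum_rr (c : G) (X : Finset G) :
    ∑ x ∈ X, rr c x = ((cls c ×ˢ cls c).filter fun q => q.2 * q.1⁻¹ ∈ X).card := by
  refine Eq.trans ?_ (Finset.card_eq_sum_card_fiberwise (s := (cls c ×ˢ cls c).filter fun q => q.2 * q.1⁻¹ ∈ X)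
    (f := fun q : G × G => q.2 * q.1⁻¹) (t := X) (fun q hq => (Finset.mem_filter.1 hq).2)).symm
  refine Finset.sum_congr rfl fun x hx => ?_
  unfold rr
  refine Finset.card_bij (fun d _ => (d, x * d)) ?_ ?_ ?_
  · intro d hd
    rw [Finset.mem_filter] at hd
    rw [Finset.mem_filter, Finset.mem_filter, Finset.mem_product]
    refine ⟨⟨⟨hd.1, hd.2⟩, ?_⟩, ?_⟩
    · show x * d * d⁻¹ ∈ X
      rw [mul_inv_cancel_right]
      exact hx
    · show x * d * d⁻¹ = x
      rw [mul_inv_cancel_right]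
  · intro d _ e _ h
    exact (Prod.mk.inj h).1
  · rintro ⟨d, d'⟩ hq
    rw [Finset.mem_filter, Finset.mem_filter, Finset.mem_product] at hq
    obtain ⟨⟨⟨h1, h2⟩, h3⟩, h4⟩ := hq
    have h5 : x * d = d' := by
      rw [← h4]
      show d' * d⁻¹ * d = d'
      rw [inv_mul_cancel_right]
    refine ⟨d, ?_, ?_⟩
    · rw [Finset.mem_filter]
      refine ⟨h1, ?_⟩
      rw [h5]
      exact h2
    · rw [h5]

open scoped Classical in
/-- the nontrivial elements of `⟨c⟩` -/
noncomputable def nz (p : ℕ) (c : G) : Finset G := univ.filter fun y => orderOf y = p ∧ y ∈ zpowers c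

theorem mem_nz {p : ℕ} {c y : G} : y ∈ nz p c ↔ orderOf y = p ∧ y ∈ zpowers c := by
  classical
  unfold nz
  rw [Finset.mem_filter]
  exact ⟨fun h => h.2, fun h => ⟨Finset.mem_univ _, h⟩⟩

omit [Fintype G] in
theorem orderOf_of_mem {p : ℕ} (hp : p.Prime) {c y : G} (hc : orderOf c = p) (hy : y ∈ zpowers c) (hy1 : y ≠ 1) :
    orderOf y = p := by
  have h1 : orderOf y ∣ p := by
    rw [← hc]
    exact orderOf_dvd_of_mem_zpowers hy
  rcases (Nat.dvd_prime hp).1 h1 with h | h
  · exact absurd (orderOf_eq_one_iff.1 h) hy1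
  · exact h

variable {p : ℕ} [hp : Fact p.Prime]

open scoped Classical in
/-- `|N| ∑_{|x| = p} r(x) = |G| s` -/
theorem norm_mul_sum (h2 : ¬ p ^ 2 ∣ Nat.card G) {c : G} (hc : orderOf c = p) :
    Nat.card (normalizer (zpowers c : Set G)) * ∑ x : G with orderOf x = p, rr c x =
      Nat.card G * ∑ y ∈ nz p c, rr c y := by
  have h3 : ∀ x ∈ (univ.filter fun x : G => orderOf x = p), Nat.card (normalizer (zpowers c : Set G)) * rr c x =
      ∑ g : G, if g * x * g⁻¹ ∈ zpowers c then rr c x else 0 := by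
    intro x hx
    rw [Finset.mem_filter] at hx
    rw [← Finset.sum_filter, Finset.sum_const, smul_eq_mul, ← card_conj_into h2 hc hx.2, Nat.card_eq_fintype_card,
      Fintype.card_subtype]
  rw [Finset.mul_sum, Finset.sum_congr rfl h3, Finset.sum_comm]
  have h4 : ∀ g ∈ (univ : Finset G), ∑ x : G with orderOf x = p, (if g * x * g⁻¹ ∈ zpowers c then rr c x else 0) =
      ∑ y ∈ nz p c, rr c y := by
    intro g _
    rw [← Finset.sum_filter, Finset.filter_filter]
    refine Finset.sum_bij (fun x _ => g * x * g⁻¹) ?_ ?_ ?_ ?_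
    · intro x hx
      rw [Finset.mem_filter] at hx
      rw [mem_nz, orderOf_conj']
      exact hx.2
    · intro d _ e _ h
      exact mul_left_cancel (mul_right_cancel h)
    · intro y hy
      rw [mem_nz] at hy
      refine ⟨g⁻¹ * y * g, ?_, by group⟩
      rw [Finset.mem_filter]
      refine ⟨Finset.mem_univ _, ?_, ?_⟩
      · rw [← orderOf_conj' g, ← hy.1]
        congr 1
        group
      · have e : g * (g⁻¹ * y * g) * g⁻¹ = y := by group
        rw [e]
        exact hy.2
    · intro x _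
      rw [rr_conj]
  rw [Finset.sum_congr rfl h4, Finset.sum_const, smul_eq_mul, Finset.card_univ, Nat.card_eq_fintype_card]

omit hp in
open scoped Classical in
/-- `|A| #{f ∈ A : |c⁻¹ f| = p} = ∑_{|x| = p} r(x)` -/
theorem card_mul_card (c : G) :
    (cls c).card * ((cls c).filter fun f => orderOf (c⁻¹ * f) = p).card = ∑ x : G with orderOf x = p, rr c x := by
  rw [sum_rr]
  refine Eq.symm ((Finset.card_filter _ _).trans ?_)
  rw [Finset.sum_product]
  have h3 : ∀ d ∈ cls c, ∑ d' ∈ cls c, (if (d, d').2 * (d, d').1⁻¹ ∈ (univ.filter fun x : G => orderOf x = p) then 1 else 0) =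
      ((cls c).filter fun f => orderOf (c⁻¹ * f) = p).card := by
    intro d hd
    rw [← Finset.card_filter]
    obtain ⟨g, hg⟩ := isConj_iff.1 (mem_cls.1 hd)
    symm
    refine Finset.card_bij (fun f _ => g * f * g⁻¹) ?_ ?_ ?_
    · intro f hf
      rw [Finset.mem_filter] at hf ⊢
      refine ⟨(conj_mem_cls g).2 hf.1, ?_⟩
      rw [Finset.mem_filter]
      refine ⟨Finset.mem_univ _, ?_⟩
      show orderOf (g * f * g⁻¹ * d⁻¹) = p
      rw [← hg, ← hf.2, ← orderOf_conj' (g * c) (c⁻¹ * f)]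
      congr 1
      group
    · intro a _ b _ h
      exact mul_left_cancel (mul_right_cancel h)
    · intro f hf
      rw [Finset.mem_filter, Finset.mem_filter] at hf
      refine ⟨g⁻¹ * f * g, ?_, by group⟩
      rw [Finset.mem_filter]
      constructor
      · refine (conj_mem_cls (c := c) g).1 ?_
        have e : g * (g⁻¹ * f * g) * g⁻¹ = f := by group
        rw [e]
        exact hf.1
      · have h4 : orderOf (f * d⁻¹) = p := hf.2.2
        rw [← h4, ← orderOf_conj' (g * c) (c⁻¹ * (g⁻¹ * f * g)), ← hg]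
        congr 1
        group
  rw [Finset.sum_congr rfl h3, Finset.sum_const, smul_eq_mul]

theorem card_cls (c : G) {m : ℕ} (hcent : Nat.card (centralizer ({c} : Set G)) = m) :
    m * (cls c).card = Nat.card G := by
  classical
  have h1 := (centralizer ({c} : Set G)).card_mul_index
  rw [hcent] at h1
  rw [← h1]
  congr 1
  have h4 : (cls c).card = Nat.card {d : G // IsConj c d} := by
    rw [Nat.card_eq_fintype_card, Fintype.card_subtype]
    rfl
  rw [h4]
  have h5 : Nat.card (G ⧸ centralizer ({c} : Set G)) = Nat.card {d : G // IsConj c d} := by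
    refine Nat.card_congr (Equiv.ofBijective (fun x => Quotient.liftOn' x
      (fun g => (⟨g * c * g⁻¹, isConj_iff.2 ⟨g, rfl⟩⟩ : {d : G // IsConj c d})) ?_) ⟨?_, ?_⟩)
    · intro a b hab
      rw [QuotientGroup.leftRel_apply] at hab
      have h6 := mem_centralizer_singleton_iff.1 hab
      apply Subtype.ext
      show a * c * a⁻¹ = b * c * b⁻¹
      have e : b * c * b⁻¹ = a * (a⁻¹ * b * c) * b⁻¹ := by group
      rw [e, h6]
      group
    · intro x y hxy
      induction x using Quotient.inductionOn' with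
      | h a =>
        induction y using Quotient.inductionOn' with
        | h b =>
          apply Quotient.sound'
          rw [QuotientGroup.leftRel_apply]
          rw [mem_centralizer_singleton_iff]
          have h6 : a * c * a⁻¹ = b * c * b⁻¹ := congrArg Subtype.val hxy
          have e : a⁻¹ * b * c = a⁻¹ * (b * c * b⁻¹) * b := by group
          rw [e, ← h6]
          group
    · rintro ⟨d, hd⟩
      obtain ⟨g, hg⟩ := isConj_iff.1 hd
      exact ⟨Quotient.mk'' g, Subtype.ext hg⟩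
  rw [← h5]
  rfl

/-- **The counting part.** -/
theorem count (h2 : ¬ p ^ 2 ∣ Nat.card G) {c : G} (hc : orderOf c = p)
    (hcent : Nat.card (centralizer ({c} : Set G)) = p) {n : ℕ}
    (hN : Nat.card (normalizer (zpowers c : Set G)) = p * n)
    (hcom : ∀ d : G, IsConj c d → ∃ k : ℕ, orderOf (c⁻¹ * d⁻¹ * c * d) = p ^ k) :
    ∃ E : ℕ, (cls c).card ^ 2 ≤ (1 + E) * ((cls c).card + ∑ y ∈ nz p c, rr c y) ∧ n * E = ∑ y ∈ nz p c, rr c y := by
  classical
  have hp' := hp.out
  have hCP : centralizer ({c} : Set G) = zpowers c := by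
    symm
    apply Subgroup.eq_of_le_of_card_ge
    · rw [Subgroup.zpowers_le]
      exact mem_centralizer_singleton_iff.2 rfl
    · rw [hcent, Nat.card_zpowers, hc]
  have hAG : p * (cls c).card = Nat.card G := card_cls c hcent
  set A := cls c with hA
  set s := ∑ y ∈ nz p c, rr c y with hs
  set E' := A.filter fun f => orderOf (c⁻¹ * f) = p with hE'
  refine ⟨E'.card, ?_, ?_⟩
  · -- Cauchy-Schwarz
    set E := insert c E' with hE
    have hEc : E.card ≤ 1 + E'.card := by
      rw [add_comm]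
      exact Finset.card_insert_le c E'
    have hmaps : ∀ d ∈ A, d⁻¹ * c * d ∈ E := by
      intro d hd
      have hd' : IsConj c d := mem_cls.1 hd
      obtain ⟨k, hk⟩ := hcom d hd'
      have hcd : d⁻¹ * c * d ∈ A := by
        have h1 := (conj_mem_cls (c := c) (d := c) d⁻¹).2 (self_mem_cls c)
        rwa [inv_inv] at h1
      have e : c⁻¹ * (d⁻¹ * c * d) = c⁻¹ * d⁻¹ * c * d := by group
      have hk2 : k < 2 := by
        by_contra h
        apply h2
        refine (pow_dvd_pow p (by omega : 2 ≤ k)).trans ?_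
        rw [← hk]
        exact orderOf_dvd_natCard _
      rw [hE, Finset.mem_insert]
      interval_cases k
      · left
        rw [pow_zero, orderOf_eq_one_iff, ← e] at hk
        exact (inv_mul_eq_one.1 hk).symm
      · right
        rw [hE', Finset.mem_filter]
        refine ⟨hcd, ?_⟩
        rw [e, hk, pow_one]
    set T := (A ×ˢ A).filter fun q => q.2 * q.1⁻¹ ∈ insert 1 (nz p c) with hT
    have hTc : T.card = A.card + s := by
      rw [hT, ← sum_rr, Finset.sum_insert, rr_one]
      intro h1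
      rw [mem_nz] at h1
      rw [orderOf_one] at h1
      exact hp'.one_lt.ne h1.1
    have hmemP : ∀ y : G, y ∈ insert 1 (nz p c) ↔ y * c = c * y := by
      intro y
      rw [Finset.mem_insert, mem_nz, ← mem_centralizer_singleton_iff, hCP]
      constructor
      · rintro (rfl | h)
        · exact one_mem _
        · exact h.2
      · intro h
        by_cases hy : y = 1
        · exact Or.inl hy
        · exact Or.inr ⟨orderOf_of_mem hp' hc h hy, h⟩
    have hTf : T.card = ∑ f ∈ E, ((A.filter fun d => d⁻¹ * c * d = f).card) ^ 2 := by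
      refine (Finset.card_eq_sum_card_fiberwise (s := T) (f := fun q : G × G => q.1⁻¹ * c * q.1) (t := E)
        (fun q hq => hmaps _ (Finset.mem_product.1 (Finset.mem_filter.1 hq).1).1)).trans ?_
      refine Finset.sum_congr rfl fun f _ => ?_
      rw [pow_two, ← Finset.card_product]
      congr 1
      ext ⟨d, d'⟩
      rw [Finset.mem_filter, hT, Finset.mem_filter, Finset.mem_product, Finset.mem_product, Finset.mem_filter,
        Finset.mem_filter, hmemP]
      show ((d ∈ A ∧ d' ∈ A) ∧ d' * d⁻¹ * c = c * (d' * d⁻¹)) ∧ d⁻¹ * c * d = f ↔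
        (d ∈ A ∧ d⁻¹ * c * d = f) ∧ d' ∈ A ∧ d'⁻¹ * c * d' = f
      constructor
      · rintro ⟨⟨⟨h1, h3⟩, h4⟩, h5⟩
        refine ⟨⟨h1, h5⟩, h3, ?_⟩
        rw [← h5]
        calc d'⁻¹ * c * d' = d'⁻¹ * (c * (d' * d⁻¹)) * d := by group
          _ = d'⁻¹ * (d' * d⁻¹ * c) * d := by rw [h4]
          _ = d⁻¹ * c * d := by group
      · rintro ⟨⟨h1, h5⟩, h3, h6⟩
        refine ⟨⟨⟨h1, h3⟩, ?_⟩, h5⟩
        rw [← h5] at h6
        calc d' * d⁻¹ * c = d' * (d⁻¹ * c * d) * d⁻¹ := by group
          _ = d' * (d'⁻¹ * c * d') * d⁻¹ := by rw [h6]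
          _ = c * (d' * d⁻¹) := by group
    have hAf : A.card = ∑ f ∈ E, (A.filter fun d => d⁻¹ * c * d = f).card :=
      Finset.card_eq_sum_card_fiberwise hmaps
    have hCS : (∑ f ∈ E, (A.filter fun d => d⁻¹ * c * d = f).card) ^ 2 ≤
        E.card * ∑ f ∈ E, ((A.filter fun d => d⁻¹ * c * d = f).card) ^ 2 := sq_sum_le_card_mul_sum_sq
    rw [← hAf, ← hTf, hTc] at hCS
    exact hCS.trans (Nat.mul_le_mul_right _ hEc)
  · have h3 := norm_mul_sum h2 hc
    rw [← card_mul_card (p := p) c, hN, ← hAG] at h3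
    have hApos : 0 < A.card := Finset.card_pos.2 ⟨c, self_mem_cls c⟩
    have h4 : (p * A.card) * (n * E'.card) = (p * A.card) * s := by
      rw [← h3]
      ring
    exact Nat.eq_of_mul_eq_mul_left (Nat.mul_pos hp'.pos hApos) h4

end

end Cfsg.Agent.H215.CC
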