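import Cfsg.Agent.H215.CC.Moment
import Cfsg.Agent.H215.CC.LyThirtySeven
import Cfsg.Agent.H655.LyBound
import Cfsg.Agent.H30.ConstVal

/-!
# The rows of the Lyons group at the primes 37 and 67 (S3828, helper215)

`crow_ly_37`, `crow_ly_67` : by the second moment lemma; the classification is used for the centralizers only.
-/

set_option autoImplicit false
set_option maxRecDepth 100000

namespace Cfsg.Agent.H215.CC.LyRow

open Subgroup Cfsg
open Cfsg.Agent.H995.CopEngine
open Cfsg.Agent.H162.CCR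

universe u

/-- the degrees of the non-trivial irreducible characters -/
theorem deg {χ : Spor.Ly → ℂ} (hχ : IsIrrCharacter Spor.Ly χ) (h1 : χ ≠ 1) : (100 : ℝ) ≤ ‖χ 1‖ := by
  have hfin : Finite Spor.Ly := Cfsg.Agent.Ly.Setup.finite_ly
  have hs : IsSimpleGroup Spor.Ly := Cfsg.Agent.Ly.Setup.isSimple_ly
  obtain ⟨n, ρ, hρ, rfl⟩ := hχ
  have hinj : Function.Injective ρ := by
    rw [injective_iff_map_eq_one]
    intro x hx
    by_contra hx1
    apply h1
    refine H30.ConstVal.eq_one_of_apply_eq ⟨n, ρ, hρ, rfl⟩ hx1 ?_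
    show LinearMap.trace ℂ _ (ρ x) = LinearMap.trace ℂ _ (ρ 1)
    rw [hx, map_one ρ]
  have h2 := H655.LyBound.hundred_le ρ hinj
  rw [Representation.char_one, Complex.norm_natCast]
  exact_mod_cast h2

/-- the order of the normalizer from Sylow's theorem -/
theorem card_norm {G : Type u} [Group G] [Finite G] {r n : ℕ} [hr : Fact r.Prime] (h2 : ¬ r ^ 2 ∣ Nat.card G) {x : G}
    (hx : orderOf x = r) (hc : Nat.card (centralizer ({x} : Set G)) = r)
    (hchk : ∀ k ∈ Nat.divisors (r - 1), Nat.card G / (r * k) % r = 1 → k = n) :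
    Nat.card (normalizer (zpowers x : Set G)) = r * n := by
  have h1 : Nat.card (normalizer (zpowers x : Set G)) ∣ r * (r - 1) := by
    have h3 := H568.OddPair.card_normalizer hx
    rwa [hc] at h3
  have h3 : r ∣ Nat.card (normalizer (zpowers x : Set G)) := by
    have h4 := orderOf_dvd_natCard (⟨x, le_normalizer (mem_zpowers x)⟩ : normalizer (zpowers x : Set G))
    rwa [Subgroup.orderOf_mk, hx] at h4
  obtain ⟨k, hk⟩ := h3
  have hkd : k ∈ Nat.divisors (r - 1) := by
    rw [Nat.mem_divisors]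
    refine ⟨?_, ?_⟩
    · rw [hk] at h1
      exact Nat.dvd_of_mul_dvd_mul_left hr.out.pos h1
    · have := hr.out.one_lt
      omega
  rw [hk]
  congr 1
  apply hchk k hkd
  have h5 : (normalizer (zpowers x : Set G)).index ≡ 1 [MOD r] := H568.OddPair.index_mod h2 hx
  have h6 : Nat.card G / (r * k) = (normalizer (zpowers x : Set G)).index := by
    rw [← hk, ← (normalizer (zpowers x : Set G)).card_mul_index]
    exact Nat.mul_div_cancel_left _ Nat.card_pos
  rw [h6]
  have h7 : (normalizer (zpowers x : Set G)).index % r = 1 % r := h5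
  rwa [Nat.mod_eq_of_lt hr.out.one_lt] at h7

/-- **The row `p = 67` of the Lyons group.** -/
theorem crow_ly_67 (hK : AllKnown.{0}) : CRow 67 Spor.Ly := by
  intro C hC
  have hp : Fact (Nat.Prime 67) := ⟨by norm_num⟩
  have h : Spor.IsoLy Spor.Ly := ⟨MulEquiv.refl _⟩
  have hfin : Finite Spor.Ly := Cfsg.Agent.Ly.Setup.finite_ly
  have := Fintype.ofFinite Spor.Ly
  have hcard : Nat.card Spor.Ly = 51765179004000000 := NotCT.Orders.ly h
  have h2 : ¬ 67 ^ 2 ∣ Nat.card Spor.Ly := by rw [hcard]; norm_num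
  have hcent := fun (x : Spor.Ly) (hx : orderOf x = 67) => H655.LySixtySeven.card_centralizer hK h hx
  refine second_moment (p := 67) (n := 22) (D := 100) (R := 305) (σ := 3.99) h2 hcent
    (fun x hx => card_norm h2 hx (hcent x hx) ?_) (by norm_num) (fun χ hχ h1 => deg hχ h1) (by norm_num) (by norm_num)
    (by norm_num) ?_ hC.toCC
  · rw [hcard]
    decide +kernel
  · rw [hcard]
    norm_num

/-- **The row `p = 37` of the Lyons group.** -/
theorem crow_ly_37 (hK : AllKnown.{0}) : CRow 37 Spor.Ly := by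
  intro C hC
  have hp : Fact (Nat.Prime 37) := ⟨by norm_num⟩
  have h : Spor.IsoLy Spor.Ly := ⟨MulEquiv.refl _⟩
  have hfin : Finite Spor.Ly := Cfsg.Agent.Ly.Setup.finite_ly
  have := Fintype.ofFinite Spor.Ly
  have hcard : Nat.card Spor.Ly = 51765179004000000 := NotCT.Orders.ly h
  have h2 : ¬ 37 ^ 2 ∣ Nat.card Spor.Ly := by rw [hcard]; norm_num
  have hcent := fun (x : Spor.Ly) (hx : orderOf x = 37) => LyThirtySeven.card_centralizer hK h hx
  refine second_moment (p := 37) (n := 18) (D := 100) (R := 151) (σ := 2.45) h2 hcent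
    (fun x hx => card_norm h2 hx (hcent x hx) ?_) (by norm_num) (fun χ hχ h1 => deg hχ h1) (by norm_num) (by norm_num)
    (by norm_num) ?_ hC.toCC
  · rw [hcard]
    decide +kernel
  · rw [hcard]
    norm_num

end Cfsg.Agent.H215.CC.LyRow
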