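import Cfsg.Agent.H215.CC.Count
import Cfsg.Agent.H686.CharKit
import Cfsg.Agent.Characters.ClassMul

/-!
# Second moment lemma, prime order version: characters (helper215, for S3828)

`second_moment` : `p² ∤ |G|`, `|C_G(x)| = p` and `|N_G(⟨x⟩)| = p n` for all `x` of order `p`, all non-trivial irreducible
characters have degree at least `D`, `(p-1) p n - (p-1)² ≤ R²`, `σ = (p-1)/p (1 + R/D)`,
`(1 + σ)(1 + σ |A| / n) < |A| = |G|/p`. Then a commutator closed normal set of `p`-elements is trivial.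
-/

set_option autoImplicit false

namespace Cfsg.Agent.H215.CC

open Subgroup Finset Cfsg Cfsg.Agent.Characters Cfsg.Agent.Characters.Core
open scoped ComplexConjugate

universe u

variable {G : Type u} [Group G] [Fintype G] {p : ℕ} [hp : Fact p.Prime]

/-- the trivial character -/
noncomputable def one (G : Type u) [Group G] : IrrCharacter G := ⟨1, isIrr_one⟩

/-- `p #{y ∈ P# : y ~ x} = |N(P)|` -/
theorem card_fused (h2 : ¬ p ^ 2 ∣ Nat.card G) {c x : G} (hc : orderOf c = p) (hx : x ∈ nz p c)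
    (hcent : Nat.card (centralizer ({x} : Set G)) = p) [DecidablePred fun y => IsConj x y] :
    p * ((nz p c).filter fun y => IsConj x y).card = Nat.card (normalizer (zpowers c : Set G)) := by
  classical
  rw [mem_nz] at hx
  rw [← card_conj_into h2 hc hx.1]
  have h1 := ClassMul.sum_conj_eq_smul (fun u : G => if u ∈ nz p c then (1 : ℕ) else 0) x
  rw [hcent, ← Finset.sum_filter, ← Finset.sum_filter, Finset.filter_filter] at h1
  simp only [Finset.sum_const, smul_eq_mul, mul_one] at h1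
  have h3 : Nat.card {g : G // g * x * g⁻¹ ∈ zpowers c} = (univ.filter fun g : G => g * x * g⁻¹ ∈ nz p c).card := by
    rw [Nat.card_eq_fintype_card, Fintype.card_subtype]
    congr 1
    ext g
    rw [Finset.mem_filter, Finset.mem_filter, mem_nz, orderOf_conj']
    exact ⟨fun h => ⟨h.1, hx.1, h.2⟩, fun h => ⟨h.1, h.2.2⟩⟩
  rw [h3, h1]
  congr 1
  refine congrArg Finset.card (Finset.ext fun y => ?_)
  simp only [Finset.mem_filter, Finset.mem_univ, true_and]
  exact and_comm

theorem card_nz {c : G} (hc : orderOf c = p) : (nz p c).card = p - 1 := by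
  classical
  have h1 : insert 1 (nz p c) = (Set.toFinset (zpowers c : Set G)) := by
    ext y
    rw [Finset.mem_insert, mem_nz, Set.mem_toFinset]
    constructor
    · rintro (rfl | h)
      · exact one_mem _
      · exact h.2
    · intro h
      by_cases hy : y = 1
      · exact Or.inl hy
      · exact Or.inr ⟨orderOf_of_mem hp.out hc h hy, h⟩
  have h3 : (1 : G) ∉ nz p c := by
    rw [mem_nz, orderOf_one]
    exact fun h => hp.out.one_lt.ne h.1
  have h4 := Finset.card_insert_of_notMem h3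
  rw [h1, Set.toFinset_card] at h4
  have h5 : Fintype.card (zpowers c : Set G) = p := by
    rw [← Nat.card_eq_fintype_card]
    show Nat.card (zpowers c) = p
    rw [Nat.card_zpowers, hc]
  rw [h5] at h4
  omega

/-- the sum over the non-trivial elements -/
noncomputable def SS (p : ℕ) (c : G) (χ : G → ℂ) : ℂ := ∑ x ∈ nz p c, χ x

/-- `∑_χ |S_χ|² = (p - 1) p n` -/
theorem sum_SS (h2 : ¬ p ^ 2 ∣ Nat.card G) (hcent : ∀ x : G, orderOf x = p → Nat.card (centralizer ({x} : Set G)) = p)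
    {c : G} (hc : orderOf c = p) {n : ℕ} (hN : Nat.card (normalizer (zpowers c : Set G)) = p * n)
    [Fintype (IrrCharacter G)] :
    ∑ χ : IrrCharacter G, Complex.normSq (SS p c χ) = ((p : ℝ) - 1) * (p * n) := by
  classical
  have h1 : ((∑ χ : IrrCharacter G, Complex.normSq (SS p c χ) : ℝ) : ℂ) = (((p : ℝ) - 1) * (p * n) : ℝ) := by
    rw [Complex.ofReal_sum]
    have e1 : ∀ χ ∈ (univ : Finset (IrrCharacter G)), ((Complex.normSq (SS p c χ) : ℝ) : ℂ) =
        ∑ x ∈ nz p c, ∑ y ∈ nz p c, (χ : G → ℂ) x * conj ((χ : G → ℂ) y) := by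
      intro χ _
      rw [← Complex.mul_conj]
      unfold SS
      rw [map_sum, Finset.sum_mul_sum]
    rw [Finset.sum_congr rfl e1, Finset.sum_comm]
    have e2 : ∀ x ∈ nz p c, ∑ χ : IrrCharacter G, ∑ y ∈ nz p c, (χ : G → ℂ) x * conj ((χ : G → ℂ) y) = ((p * n : ℝ) : ℂ) := by
      intro x hx
      rw [Finset.sum_comm]
      have e3 : ∀ y ∈ nz p c, ∑ χ : IrrCharacter G, (χ : G → ℂ) x * conj ((χ : G → ℂ) y) =
          if IsConj x y then (p : ℂ) else 0 := by
        intro y hy
        rw [Cfsg.Agent.H686.CharKit.col_orth, hcent y (mem_nz.1 hy).1]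
      rw [Finset.sum_congr rfl e3, ← Finset.sum_filter, Finset.sum_const, nsmul_eq_mul]
      have h3 := card_fused h2 hc hx (hcent x (mem_nz.1 hx).1)
      rw [hN] at h3
      have h4 : (p : ℂ) * (((nz p c).filter fun y => IsConj x y).card : ℂ) = p * n := by exact_mod_cast h3
      rw [mul_comm, h4]
      push_cast
      ring
    rw [Finset.sum_congr rfl e2, Finset.sum_const, card_nz hc, nsmul_eq_mul, Nat.cast_sub hp.out.one_lt.le]
    push_cast
    ring
  exact_mod_cast h1

theorem SS_one {c : G} (hc : orderOf c = p) : SS p c ((one G : IrrCharacter G) : G → ℂ) = ((p : ℂ) - 1) := by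
  unfold SS
  have : ∀ x ∈ nz p c, ((one G : IrrCharacter G) : G → ℂ) x = 1 := fun x _ => rfl
  rw [Finset.sum_congr rfl this, Finset.sum_const, card_nz hc, nsmul_eq_mul, Nat.cast_sub hp.out.one_lt.le, mul_one]
  push_cast
  ring

/-- the formula for `r(x)` -/
theorem rr_eq {c x : G} (hcc : Nat.card (centralizer ({c} : Set G)) = p)
    (hcc' : Nat.card (centralizer ({c⁻¹} : Set G)) = p) [Fintype (IrrCharacter G)] :
    (rr c x : ℂ) = ((cls c).card : ℂ) / p *
      ∑ χ : IrrCharacter G, (Complex.normSq ((χ : G → ℂ) c) : ℂ) * conj ((χ : G → ℂ) x) / (χ : G → ℂ) 1 := by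
  classical
  have h1 := ClassMul.card_class_mul c c⁻¹ x
  have h3 : Nat.card {q : G × G // IsConj c q.1 ∧ IsConj c⁻¹ q.2 ∧ q.1 * q.2 = x} = rr c x := by
    rw [Nat.card_eq_fintype_card, Fintype.card_subtype]
    unfold rr
    symm
    refine Finset.card_bij (fun d _ => (x * d, d⁻¹)) ?_ ?_ ?_
    · intro d hd
      rw [Finset.mem_filter] at hd
      rw [Finset.mem_filter]
      refine ⟨Finset.mem_univ _, mem_cls.1 hd.2, ?_, ?_⟩
      · obtain ⟨g, hg⟩ := isConj_iff.1 (mem_cls.1 hd.1)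
        refine isConj_iff.2 ⟨g, ?_⟩
        rw [← hg]
        group
      · show x * d * d⁻¹ = x
        group
    · intro a _ b _ h
      exact inv_injective (Prod.mk.inj h).2
    · rintro ⟨u, v⟩ hq
      rw [Finset.mem_filter] at hq
      obtain ⟨-, h4, h5, h6⟩ := hq
      have h7 : u * v = x := h6
      refine ⟨v⁻¹, ?_, ?_⟩
      · rw [Finset.mem_filter]
        constructor
        · rw [mem_cls]
          obtain ⟨g, hg⟩ := isConj_iff.1 h5
          have hg' : g * c⁻¹ * g⁻¹ = v := hg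
          refine isConj_iff.2 ⟨g, ?_⟩
          rw [← hg']
          group
        · rw [← h7, mul_inv_cancel_right, mem_cls]
          exact h4
      · rw [← h7, mul_inv_cancel_right, inv_inv]
  rw [h3] at h1
  rw [h1]
  have hi : ∀ d : G, Nat.card (centralizer ({d} : Set G)) = p → (centralizer ({d} : Set G)).index = (cls c).card := by
    intro d hd
    have h4 := (centralizer ({d} : Set G)).card_mul_index
    rw [hd, ← card_cls c hcc] at h4
    exact Nat.eq_of_mul_eq_mul_left hp.out.pos h4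
  rw [hi c hcc, hi _ hcc']
  have hG : (Nat.card G : ℂ) = p * (cls c).card := by
    rw [← card_cls c hcc]
    push_cast
    ring
  have hA0 : ((cls c).card : ℂ) ≠ 0 := by
    have : 0 < (cls c).card := Finset.card_pos.2 ⟨c, self_mem_cls c⟩
    exact_mod_cast this.ne'
  have hp0 : (p : ℂ) ≠ 0 := by exact_mod_cast hp.out.pos.ne'
  rw [hG]
  congr 1
  · field_simp
  · refine Finset.sum_congr rfl fun χ _ => ?_
    rw [isCharacter_apply_inv (isIrr_isCharacter χ.2), Complex.mul_conj]

/-- the upper bound for `s` -/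
theorem sum_rr_le (h2 : ¬ p ^ 2 ∣ Nat.card G)
    (hcent : ∀ x : G, orderOf x = p → Nat.card (centralizer ({x} : Set G)) = p)
    {c : G} (hc : orderOf c = p) {n : ℕ} (hN : Nat.card (normalizer (zpowers c : Set G)) = p * n)
    {D R : ℝ} (hD0 : 0 < D) (hD : ∀ χ : G → ℂ, IsIrrCharacter G χ → χ ≠ 1 → D ≤ ‖χ 1‖) (hR0 : 0 ≤ R)
    (hR : ((p : ℝ) - 1) * (p * n) - ((p : ℝ) - 1) ^ 2 ≤ R ^ 2) :
    ((∑ x ∈ nz p c, rr c x : ℕ) : ℝ) ≤ (((p : ℝ) - 1) / p * (1 + R / D)) * (cls c).card := by
  classical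
  have hfin : Finite (IrrCharacter G) := finite_irr
  have : Fintype (IrrCharacter G) := Fintype.ofFinite _
  have hc' : orderOf c⁻¹ = p := by rw [orderOf_inv, hc]
  have hp1 : (1 : ℝ) < p := by exact_mod_cast hp.out.one_lt
  have hp0 : (0 : ℝ) < p := by linarith
  set a : ℝ := ((cls c).card : ℝ) with ha
  have ha0 : 0 ≤ a := Nat.cast_nonneg _
  -- the bound for `S`
  have hS : ∀ χ : IrrCharacter G, χ ≠ one G → ‖SS p c (χ : G → ℂ)‖ ≤ R := by
    intro χ hχ
    have h3 := sum_SS h2 hcent hc hN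
    have h4 : Complex.normSq (SS p c (χ : G → ℂ)) + Complex.normSq (SS p c ((one G : IrrCharacter G) : G → ℂ)) ≤
        ((p : ℝ) - 1) * (p * n) := by
      rw [← h3, ← Finset.sum_pair (f := fun χ : IrrCharacter G => Complex.normSq (SS p c (χ : G → ℂ))) hχ]
      exact Finset.sum_le_sum_of_subset_of_nonneg (Finset.subset_univ _) fun _ _ _ => Complex.normSq_nonneg _
    rw [SS_one hc] at h4
    have h5 : Complex.normSq ((p : ℂ) - 1) = ((p : ℝ) - 1) ^ 2 := by
      have : ((p : ℂ) - 1) = (((p : ℝ) - 1 : ℝ) : ℂ) := by push_cast; ring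
      rw [this, Complex.normSq_ofReal]
      ring
    rw [h5, Complex.normSq_eq_norm_sq] at h4
    exact abs_le_of_sq_le_sq' (by linarith) hR0 |>.2
  -- the formula
  have hsum : ((∑ x ∈ nz p c, rr c x : ℕ) : ℂ) = (a : ℂ) / p *
      ∑ χ : IrrCharacter G, (Complex.normSq ((χ : G → ℂ) c) : ℂ) * conj (SS p c (χ : G → ℂ)) / (χ : G → ℂ) 1 := by
    rw [Nat.cast_sum]
    have h3 : ∀ x ∈ nz p c, (rr c x : ℂ) = ((cls c).card : ℂ) / p *
      ∑ χ : IrrCharacter G, (Complex.normSq ((χ : G → ℂ) c) : ℂ) * conj ((χ : G → ℂ) x) / (χ : G → ℂ) 1 :=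
      fun x _ => rr_eq (hcent c hc) (hcent _ hc')
    rw [Finset.sum_congr rfl h3, ← Finset.mul_sum, Finset.sum_comm]
    congr 1
    refine Finset.sum_congr rfl fun χ _ => ?_
    unfold SS
    rw [map_sum, Finset.mul_sum, Finset.sum_div]
  -- separate the trivial character
  have hsplit : ∑ χ : IrrCharacter G, (Complex.normSq ((χ : G → ℂ) c) : ℂ) * conj (SS p c (χ : G → ℂ)) / (χ : G → ℂ) 1 =
      ((p : ℂ) - 1) + ∑ χ ∈ univ.erase (one G), (Complex.normSq ((χ : G → ℂ) c) : ℂ) * conj (SS p c (χ : G → ℂ)) /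
        (χ : G → ℂ) 1 := by
    rw [← Finset.add_sum_erase _ _ (Finset.mem_univ (one G))]
    congr 1
    rw [SS_one hc]
    have e1 : ((one G : IrrCharacter G) : G → ℂ) c = 1 := rfl
    have e2 : ((one G : IrrCharacter G) : G → ℂ) 1 = 1 := rfl
    rw [e1, e2]
    simp
  have hbound : ‖∑ χ ∈ univ.erase (one G), (Complex.normSq ((χ : G → ℂ) c) : ℂ) * conj (SS p c (χ : G → ℂ)) /
        (χ : G → ℂ) 1‖ ≤ ((p : ℝ) - 1) * (R / D) := by
    refine (norm_sum_le _ _).trans ?_
    have h3 : ∀ χ ∈ univ.erase (one G), ‖(Complex.normSq ((χ : G → ℂ) c) : ℂ) * conj (SS p c (χ : G → ℂ)) /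
        (χ : G → ℂ) 1‖ ≤ Complex.normSq ((χ : G → ℂ) c) * (R / D) := by
      intro χ hχ
      have hne : χ ≠ one G := (Finset.mem_erase.1 hχ).1
      have h4 : D ≤ ‖(χ : G → ℂ) 1‖ := hD _ χ.2 fun h => hne (Subtype.ext h)
      rw [norm_div, norm_mul, RCLike.norm_conj, Complex.norm_real, Real.norm_of_nonneg (Complex.normSq_nonneg _),
        mul_div_assoc]
      refine mul_le_mul_of_nonneg_left ?_ (Complex.normSq_nonneg _)
      exact div_le_div₀ hR0 (hS χ hne) hD0 h4
    refine (Finset.sum_le_sum h3).trans ?_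
    rw [← Finset.sum_mul]
    refine mul_le_mul_of_nonneg_right ?_ (div_nonneg hR0 hD0.le)
    have h4 := Cfsg.Agent.H686.CharKit.sum_normSq (G := G) c
    rw [hcent c hc, ← Finset.add_sum_erase _ _ (Finset.mem_univ (one G))] at h4
    have e1 : Complex.normSq (((one G : IrrCharacter G) : G → ℂ) c) = 1 := by
      have : ((one G : IrrCharacter G) : G → ℂ) c = 1 := rfl
      rw [this]
      simp
    rw [e1] at h4
    linarith
  have hfinal : ‖((∑ x ∈ nz p c, rr c x : ℕ) : ℂ)‖ ≤ a / p * (((p : ℝ) - 1) + ((p : ℝ) - 1) * (R / D)) := by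
    rw [hsum, hsplit, norm_mul, norm_div, Complex.norm_natCast, Complex.norm_real, Real.norm_of_nonneg ha0]
    refine mul_le_mul_of_nonneg_left ?_ (by positivity)
    refine (norm_add_le _ _).trans ?_
    refine add_le_add ?_ hbound
    have : ((p : ℂ) - 1) = (((p : ℝ) - 1 : ℝ) : ℂ) := by push_cast; ring
    rw [this, Complex.norm_real, Real.norm_of_nonneg (by linarith)]
  rw [Complex.norm_natCast] at hfinal
  refine hfinal.trans (le_of_eq ?_)
  field_simp

open Cfsg.Agent.H162.CCR in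
/-- **Second moment lemma** (prime order version). -/
theorem second_moment (h2 : ¬ p ^ 2 ∣ Nat.card G)
    (hcent : ∀ x : G, orderOf x = p → Nat.card (centralizer ({x} : Set G)) = p) {n : ℕ}
    (hN : ∀ x : G, orderOf x = p → Nat.card (normalizer (zpowers x : Set G)) = p * n)
    {D R σ : ℝ} (hD0 : 0 < D) (hD : ∀ χ : G → ℂ, IsIrrCharacter G χ → χ ≠ 1 → D ≤ ‖χ 1‖) (hR0 : 0 ≤ R)
    (hR : ((p : ℝ) - 1) * (p * n) - ((p : ℝ) - 1) ^ 2 ≤ R ^ 2) (hσ : ((p : ℝ) - 1) / p * (1 + R / D) ≤ σ)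
    (hnum : (1 + σ) * (1 + σ * ((Nat.card G : ℝ) / p) / n) < (Nat.card G : ℝ) / p)
    {C : Set G} (hC : CC p C) : ∀ c ∈ C, c = 1 := by
  intro c hcC
  by_contra hc1
  have hp1 : (1 : ℝ) < p := by exact_mod_cast hp.out.one_lt
  have hp0 : (0 : ℝ) < p := by linarith
  have hc : orderOf c = p := by
    obtain ⟨k, hk⟩ := hC.pel c hcC
    have hk2 : k < 2 := by
      by_contra h
      apply h2
      refine (pow_dvd_pow p (by omega : 2 ≤ k)).trans ?_
      rw [← hk]
      exact orderOf_dvd_natCard _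
    interval_cases k
    · exact absurd (orderOf_eq_one_iff.1 (by rw [hk, pow_zero])) hc1
    · rw [hk, pow_one]
  obtain ⟨E, h3, h4⟩ := count h2 hc (hcent c hc) (hN c hc) (by
    intro d hd
    obtain ⟨g, hg⟩ := isConj_iff.1 hd
    exact hC.pel _ (hC.comm c hcC d (hg ▸ hC.conj g c hcC)))
  have h5 := sum_rr_le h2 hcent hc (hN c hc) hD0 hD hR0 hR
  have hn0 : 0 < n := by
    rcases Nat.eq_zero_or_pos n with h | h
    · have h6 := hN c hc
      rw [h, mul_zero] at h6
      exact absurd h6 Nat.card_pos.ne'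
    · exact h
  have hn0' : (0 : ℝ) < n := by exact_mod_cast hn0
  have hA : ((cls c).card : ℝ) = (Nat.card G : ℝ) / p := by
    rw [eq_div_iff hp0.ne', ← card_cls c (hcent c hc)]
    push_cast
    ring
  rw [← hA] at hnum
  have hApos : (0 : ℝ) < ((cls c).card : ℝ) := by
    have : 0 < (cls c).card := Finset.card_pos.2 ⟨c, self_mem_cls c⟩
    exact_mod_cast this
  set a : ℝ := ((cls c).card : ℝ) with ha
  set s : ℝ := ((∑ x ∈ nz p c, rr c x : ℕ) : ℝ) with hs
  have h3' : a ^ 2 ≤ (1 + (E : ℝ)) * (a + s) := by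
    rw [ha, hs]
    exact_mod_cast h3
  have h4' : (n : ℝ) * E = s := by
    rw [hs, ← h4]
    push_cast
    ring
  have hs1 : s ≤ σ * a := h5.trans (mul_le_mul_of_nonneg_right hσ hApos.le)
  have hE : (E : ℝ) ≤ σ * a / n := by
    rw [le_div_iff₀ hn0', mul_comm, h4']
    exact hs1
  have hs0 : 0 ≤ s := Nat.cast_nonneg _
  have h6 : a ^ 2 ≤ (1 + σ * a / n) * (a + σ * a) := by
    refine h3'.trans (mul_le_mul (by linarith) (by linarith) (by linarith) ?_)
    have : (0 : ℝ) ≤ E := Nat.cast_nonneg _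
    linarith
  have h7 : (1 + σ * a / n) * (a + σ * a) < a ^ 2 := by
    have h8 : (1 + σ * a / n) * (a + σ * a) = a * ((1 + σ) * (1 + σ * a / n)) := by ring
    rw [h8, pow_two]
    exact mul_lt_mul_of_pos_left hnum hApos
  exact absurd h6 (not_le.2 h7)

end Cfsg.Agent.H215.CC
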